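import Mathlib.GroupTheory.Transfer
import Cfsg.Agent.FGS.Basic
import Mathlib.GroupTheory.Nilpotent
import Mathlib.GroupTheory.Solvable
import Mathlib.GroupTheory.SpecificGroups.Cyclic
import Mathlib.Algebra.BigOperators.Intervals
import Mathlib.Algebra.Order.Field.Rat
import Mathlib.Tactic.Positivity
import Mathlib.Tactic.Linarith
import Mathlib.Tactic.FieldSimp

/-! If every centralizer of a non-central element is maximal, the group is solvable. -/

namespace Cfsg.Agent.FGS.MaxCent

open Subgroup
open scoped Pointwise commutatorElement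

variable {G : Type*} [Group G]

abbrev cz (g : G) : Subgroup G := centralizer ({g} : Set G)

theorem mem_cz {g x : G} : x ∈ cz g ↔ g * x = x * g :=
  ⟨fun h => h g rfl, fun h y hy => by rw [Set.mem_singleton_iff.1 hy]; exact h⟩

theorem cz_eq_top_iff {g : G} : cz g = ⊤ ↔ g ∈ center G := by
  constructor
  · intro h
    rw [Subgroup.mem_center_iff]
    intro x
    have : x ∈ cz g := by rw [h]; exact mem_top x
    exact (mem_cz.1 this).symm
  · intro h
    rw [eq_top_iff]
    exact fun x _ => mem_cz.2 (Subgroup.mem_center_iff.1 h x).symm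

theorem cz_le_cz_pow (g : G) (n : ℕ) : cz g ≤ cz (g ^ n) := fun _ hx =>
  mem_cz.2 ((show Commute g _ from mem_cz.1 hx).pow_left n)

theorem mem_of_primary_parts [Finite G] {H : Subgroup G} (x : G)
    (h : ∀ q : ℕ, q.Prime → x ^ (ordCompl[q] (orderOf x)) ∈ H) : x ∈ H := by
  set T := zpowers x
  set K := H.subgroupOf T
  letI := IsCyclic.commGroup (α := T)
  set y : T := ⟨x, mem_zpowers x⟩
  have hy : orderOf (y : T ⧸ K) = 1 := by
    by_contra hne
    obtain ⟨q, hq, hqd⟩ := Nat.exists_prime_and_dvd hne
    have h1 : orderOf (y : T ⧸ K) ∣ ordCompl[q] (orderOf x) := by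
      apply orderOf_dvd_of_pow_eq_one
      rw [← QuotientGroup.mk_pow, QuotientGroup.eq_one_iff]
      exact h q hq
    exact Nat.not_dvd_ordCompl hq (orderOf_pos x).ne' (hqd.trans h1)
  rw [orderOf_eq_one_iff, QuotientGroup.eq_one_iff] at hy
  exact hy

theorem exists_noncentral_part [Finite G] {g : G} {H : Subgroup G} (hg : g ∉ H) :
    ∃ q : ℕ, q.Prime ∧ g ^ (ordCompl[q] (orderOf g)) ∉ H := by
  by_contra h
  push Not at h
  exact hg (mem_of_primary_parts g h)

theorem orderOf_primary_part_dvd [Finite G] (g : G) (q : ℕ) :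
    orderOf (g ^ (ordCompl[q] (orderOf g))) ∣ ordProj[q] (orderOf g) := by
  apply orderOf_dvd_of_pow_eq_one
  rw [← pow_mul, mul_comm, Nat.ordProj_mul_ordCompl_eq_self, pow_orderOf_eq_one]

theorem mem_normalizer_iff_conj_smul {R : Subgroup G} {x : G} :
    x ∈ normalizer (R : Set G) ↔ MulAut.conj x • R = R := by
  rw [mem_normalizer_iff'', eq_comm, SetLike.ext_iff]
  refine forall_congr' fun z => ?_
  rw [mem_pointwise_smul_iff_inv_smul_mem, ← map_inv, MulAut.smul_def, MulAut.conj_apply, inv_inv]

theorem map_conjNormal {K : Subgroup G} [K.Normal] (T : Subgroup K) (u : G) :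
    (T.map (MulAut.conjNormal u : K ≃* K).toMonoidHom).map K.subtype = MulAut.conj u • T.map K.subtype := by
  change _ = (T.map K.subtype).map (MulAut.conj u).toMonoidHom
  rw [map_map, map_map]
  congr 1

theorem map_conj_subtype {K : Subgroup G} (T : Subgroup K) (k : K) :
    (MulAut.conj k • T).map K.subtype = MulAut.conj (k : G) • T.map K.subtype := by
  change (T.map (MulAut.conj k).toMonoidHom).map K.subtype = (T.map K.subtype).map (MulAut.conj (k : G)).toMonoidHom
  rw [map_map, map_map]
  congr 1

variable (h : ∀ g : G, g ∉ center G → IsCoatom (cz g))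

include h

theorem cz_eq_of_le {x y : G} (hx : x ∉ center G) (hy : y ∉ center G) (hle : cz x ≤ cz y) :
    cz x = cz y := by
  rcases hle.lt_or_eq with hlt | he
  · exact absurd (cz_eq_top_iff.1 ((h x hx).2 _ hlt)) hy
  · exact he

theorem cz_eq_of_coprime {x y : G} (hxy : Commute x y) (hcop : (orderOf x).Coprime (orderOf y))
    (hx : x ∉ center G) (hy : y ∉ center G) : cz x = cz y := by
  have key : ∀ {a b : G}, Commute a b → (orderOf a).Coprime (orderOf b) →
      ∃ n : ℕ, (a * b) ^ n = a := by
    intro a b hab hc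
    obtain ⟨m, hm⟩ := exists_pow_eq_self_of_coprime (x := a) hc.symm
    refine ⟨orderOf b * m, ?_⟩
    rw [pow_mul, hab.mul_pow, pow_orderOf_eq_one, mul_one, hm]
  obtain ⟨n, hn⟩ := key hxy hcop
  obtain ⟨m, hm⟩ := key hxy.symm hcop.symm
  rw [← hxy.eq] at hm
  have hz : x * y ∉ center G := fun hz => hx (hn ▸ (center G).pow_mem hz n)
  have h1 := cz_eq_of_le h hz hx ((cz_le_cz_pow (x * y) n).trans_eq (by rw [hn]))
  have h2 := cz_eq_of_le h hz hy ((cz_le_cz_pow (x * y) m).trans_eq (by rw [hm]))
  rw [← h1, h2]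

theorem comm_or_prime [Finite G] {g : G} (hg : g ∉ center G) :
    (∀ a ∈ cz g, ∀ b ∈ cz g, a * b = b * a) ∨
      ∃ p : ℕ, p.Prime ∧ ∀ y ∈ cz g, ¬ p ∣ orderOf y → y ∈ center G := by
  by_cases hc : ∀ a ∈ cz g, ∀ b ∈ cz g, a * b = b * a
  · exact Or.inl hc
  right
  obtain ⟨r, hr, hg'⟩ := exists_noncentral_part hg
  set g' := g ^ (ordCompl[r] (orderOf g))
  have hC : cz g = cz g' := cz_eq_of_le h hg hg' (cz_le_cz_pow g _)
  have ho := orderOf_primary_part_dvd g r
  push Not at hc
  obtain ⟨a, ha, b, hb, hab⟩ := hc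
  set H := centralizer ((cz g : Subgroup G) : Set G)
  have haH : a ∉ H := fun hh => hab (hh b hb).symm
  obtain ⟨q, hq, ha'⟩ := exists_noncentral_part haH
  set a' := a ^ (ordCompl[q] (orderOf a))
  have ha'C : a' ∈ cz g := pow_mem ha _
  have ha'Z : a' ∉ center G := fun hh => ha' (center_le_centralizer _ hh)
  have hH : ∀ z, cz z = cz g → z ∈ H := by
    intro z hz w hw
    rw [← hz] at hw
    exact (mem_cz.1 hw).symm
  have hqr : q = r := by
    by_contra hne
    apply ha'
    refine hH a' ?_
    rw [hC]
    refine cz_eq_of_coprime h ?_ ?_ ha'Z hg'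
    · exact (mem_cz.1 (hC ▸ ha'C)).symm
    · exact Nat.Coprime.of_dvd (orderOf_primary_part_dvd a q) ho
        (Nat.coprime_pow_primes _ _ hq hr hne)
  refine ⟨r, hr, fun y hy hry => ?_⟩
  by_contra hyZ
  have hcop : ∀ z : G, orderOf z ∣ ordProj[r] (orderOf z) → (orderOf z).Coprime (orderOf y) := by
    intro z hz
    exact Nat.Coprime.coprime_dvd_left hz (Nat.Coprime.pow_left _ (hr.coprime_iff_not_dvd.2 hry))
  have hcop' : ∀ z : G, ∀ k : ℕ, orderOf z ∣ r ^ k → (orderOf z).Coprime (orderOf y) := fun z k hz =>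
    Nat.Coprime.coprime_dvd_left hz (Nat.Coprime.pow_left _ (hr.coprime_iff_not_dvd.2 hry))
  have h1 : cz g' = cz y := cz_eq_of_coprime h (mem_cz.1 (hC ▸ hy)) (hcop' _ _ ho) hg' hyZ
  have h2 : cz a' = cz y := by
    refine cz_eq_of_coprime h (mem_cz.1 ?_) (hcop' _ ((orderOf a).factorization r) ?_) ha'Z hyZ
    · have : a' ∈ cz y := by rw [← h1, ← hC]; exact ha'C
      exact mem_cz.2 (mem_cz.1 this).symm
    · have := orderOf_primary_part_dvd a q
      rw [hqr] at this
      exact (congrArg (fun q => orderOf (a ^ (ordCompl[q] (orderOf a)))) hqr).symm ▸ this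
  exact ha' (hH a' (by rw [h2, ← h1, hC]))

omit h in
theorem mem_center_subgroup_of_mem_center {C : Subgroup G} {y : C} (hy : (y : G) ∈ center G) :
    y ∈ center C := Subgroup.mem_center_iff.2 fun z => Subtype.ext (Subgroup.mem_center_iff.1 hy z)

omit h in
theorem isPGroup_center_quotient [Finite G] {C : Subgroup G} {p : ℕ} (hp : p.Prime)
    (hC : ∀ y ∈ C, ¬ p ∣ orderOf y → y ∈ center G) : IsPGroup p (C ⧸ center C) := by
  intro x
  obtain ⟨y, rfl⟩ := QuotientGroup.mk_surjective x
  refine ⟨(orderOf (y : G)).factorization p, ?_⟩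
  rw [← QuotientGroup.mk_pow, QuotientGroup.eq_one_iff]
  refine mem_center_subgroup_of_mem_center (hC _ (SetLike.coe_mem _) ?_)
  rw [Subgroup.coe_pow]
  intro hd
  have h1 : orderOf ((y : G) ^ (ordProj[p] (orderOf (y : G)))) ∣ ordCompl[p] (orderOf (y : G)) := by
    apply orderOf_dvd_of_pow_eq_one
    rw [← pow_mul, Nat.ordProj_mul_ordCompl_eq_self, pow_orderOf_eq_one]
  exact Nat.not_dvd_ordCompl hp (orderOf_pos (y : G)).ne' (hd.trans h1)

theorem isNilpotent_cz [Finite G] {g : G} (hg : g ∉ center G) : Group.IsNilpotent (cz g) := by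
  apply Group.of_quotient_center_nilpotent
  rcases comm_or_prime h hg with hc | ⟨p, hp, hC⟩
  · have : center (cz g) = ⊤ := by
      rw [eq_top_iff]; exact fun x _ => Subgroup.mem_center_iff.2 fun y => Subtype.ext (hc y y.2 x x.2)
    haveI : Subsingleton (cz g ⧸ center (cz g)) := by
      rw [this]; exact QuotientGroup.subsingleton_quotient_top
    infer_instance
  · haveI := Fact.mk hp
    exact (isPGroup_center_quotient hp hC).isNilpotent

theorem isSolvable_of_normal [Finite G] {g : G} (hg : g ∉ center G) (hn : (cz g).Normal) :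
    Group.IsSolvable G := by
  haveI := hn
  haveI := isNilpotent_cz h hg
  have hQ : Group.IsSolvable (G ⧸ cz g) := by
    by_cases htriv : ∀ y : G ⧸ cz g, y = 1
    · exact Group.isSolvable_of_comm fun a b => by rw [htriv a, htriv b]
    push Not at htriv
    obtain ⟨y, hy⟩ := htriv
    have htop : zpowers y = ⊤ := by
      apply comap_injective (QuotientGroup.mk'_surjective (cz g))
      rw [comap_top]
      refine (h g hg).2 _ ?_
      conv_lhs => rw [← QuotientGroup.ker_mk' (cz g), ← MonoidHom.comap_bot]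
      exact (comap_lt_comap_of_surjective (QuotientGroup.mk'_surjective _)).2
        (bot_lt_iff_ne_bot.2 (fun hb => hy (zpowers_eq_bot.1 hb)))
    refine Group.isSolvable_of_comm fun a b => ?_
    obtain ⟨i, rfl⟩ := mem_zpowers_iff.1 (show a ∈ zpowers y by rw [htop]; exact mem_top a)
    obtain ⟨j, rfl⟩ := mem_zpowers_iff.1 (show b ∈ zpowers y by rw [htop]; exact mem_top b)
    exact ((Commute.refl y).zpow_zpow i j).eq
  exact Group.isSolvable_of_ker_le_range (cz g).subtype (QuotientGroup.mk' (cz g)) (by simp)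

omit h in
/-- A maximal subgroup normalising a non-normal `p`-subgroup containing its `p`-elements is the
normalizer of a Sylow subgroup. -/
theorem exists_sylow_eq [Finite G] {p : ℕ} [Fact p.Prime] {C : Subgroup G}
    (P0 : Sylow p C) (hN : normalizer (((P0 : Subgroup C).map C.subtype : Subgroup G) : Set G) = C)
    (hP0 : (P0 : Subgroup C).Normal) :
    ∃ P : Sylow p G, (P : Subgroup G) = (P0 : Subgroup C).map C.subtype := by
  set P' := (P0 : Subgroup C).map C.subtype
  obtain ⟨P, hP⟩ := (P0.isPGroup'.map C.subtype).exists_le_sylow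
  refine ⟨P, le_antisymm ?_ hP⟩
  haveI : Group.IsNilpotent (P : Subgroup G) := P.isPGroup'.isNilpotent
  by_contra hne
  have hlt : P'.subgroupOf P < ⊤ := by
    rw [lt_top_iff_ne_top, ne_eq, subgroupOf_eq_top]; exact hne
  obtain ⟨x, hx1, hx2⟩ := SetLike.exists_of_lt (Group.normalizerCondition_of_isNilpotent _ hlt)
  apply hx2
  rw [← subgroupOf_normalizer_eq hP, mem_subgroupOf, hN] at hx1
  rw [mem_subgroupOf]
  have hpg : IsPGroup p (zpowers (⟨x, hx1⟩ : C)) := by
    rintro ⟨y, i, rfl⟩
    obtain ⟨k, hk⟩ := P.isPGroup' x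
    refine ⟨k, Subtype.ext (Subtype.ext ?_)⟩
    change (((x : G) ^ i)) ^ p ^ k = 1
    rw [← zpow_natCast, ← zpow_mul, mul_comm, zpow_mul, zpow_natCast]
    have := congrArg Subtype.val hk
    rw [Subgroup.coe_pow, Subgroup.coe_one] at this
    rw [this, one_zpow]
  obtain ⟨S, hS⟩ := hpg.exists_le_sylow
  letI := P0.unique_of_normal hP0
  rw [Subsingleton.elim S P0] at hS
  exact ⟨⟨x, hx1⟩, hS (mem_zpowers _), rfl⟩

theorem exists_sylow_of_noncomm [Finite G] (hnn : ∀ g : G, g ∉ center G → ¬ (cz g).Normal)
    {g : G} (hg : g ∉ center G) (hnc : ¬ ∀ a ∈ cz g, ∀ b ∈ cz g, a * b = b * a) :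
    ∃ p : ℕ, p.Prime ∧ ∃ P : Sylow p G, cz g = normalizer ((P : Subgroup G) : Set G) ∧
      p ^ 2 * Nat.card (center (cz g)) ≤ Nat.card (cz g) := by
  rcases comm_or_prime h hg with hc | ⟨p, hp, hC⟩
  · exact absurd hc hnc
  haveI := Fact.mk hp
  haveI := isNilpotent_cz h hg
  set C := cz g with hCdef
  obtain ⟨P0⟩ : Nonempty (Sylow p C) := inferInstance
  have hP0 : (P0 : Subgroup C).Normal :=
    isNilpotent_iff_forall_exists_normal_sylow.1 (inferInstance : Group.IsNilpotent C) p ⟨hp⟩ P0
  set P' := (P0 : Subgroup C).map C.subtype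
  have hle : C ≤ P' ⊔ center G := by
    intro y hy
    refine mem_of_primary_parts y fun q hq => ?_
    have hd := orderOf_primary_part_dvd y q
    by_cases hqp : q = p
    · subst hqp
      refine mem_sup_left ⟨⟨_, pow_mem hy _⟩, ?_, rfl⟩
      obtain ⟨j, -, hj⟩ := (Nat.dvd_prime_pow hq).1 hd
      have hpg : IsPGroup q (zpowers (⟨_, pow_mem hy (ordCompl[q] (orderOf y))⟩ : C)) := by
        refine IsPGroup.of_card (n := j) ?_
        rw [Nat.card_zpowers, ← orderOf_injective C.subtype C.subtype_injective]
        exact hj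
      obtain ⟨S, hS⟩ := hpg.exists_le_sylow
      letI := P0.unique_of_normal hP0
      rw [Subsingleton.elim S P0] at hS
      exact hS (mem_zpowers _)
    · refine mem_sup_right (hC _ (pow_mem hy _) fun hd' => hqp ?_)
      exact ((Nat.prime_dvd_prime_iff_eq hp hq).1 (hp.dvd_of_dvd_pow (hd'.trans hd))).symm
  have hCN : C ≤ normalizer (P' : Set G) := by
    have h1 := Subgroup.le_normalizer_map (H := (P0 : Subgroup C)) C.subtype
    rw [normalizer_eq_top_iff.2 hP0, ← MonoidHom.range_eq_map, C.range_subtype] at h1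
    exact h1
  have hN : normalizer (P' : Set G) = C := by
    refine ((h g hg).le_iff.1 hCN).resolve_left fun htop => ?_
    haveI : P'.Normal := normalizer_eq_top_iff.1 htop
    have hZC : center G ≤ C := center_le_centralizer _
    have : C = P' ⊔ center G := le_antisymm hle (sup_le (map_subtype_le _) hZC)
    exact hnn g hg (by rw [← hCdef, this]; infer_instance)
  obtain ⟨P, hP⟩ := exists_sylow_eq P0 hN hP0
  refine ⟨p, hp, P, by rw [hP, hN], ?_⟩
  obtain ⟨k, hk⟩ := IsPGroup.iff_card.1 (isPGroup_center_quotient hp hC)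
  have hk2 : 2 ≤ k := by
    by_contra hk2
    apply hnc
    haveI : IsCyclic (C ⧸ center C) := by
      rcases (show k = 0 ∨ k = 1 by omega) with rfl | rfl
      · haveI : Subsingleton (C ⧸ center C) := (Nat.card_eq_one_iff_unique.1 (by simpa using hk)).1
        infer_instance
      · exact isCyclic_of_prime_card (by simpa using hk)
    intro a ha b hb
    have := commutative_of_cyclic_center_quotient (QuotientGroup.mk' (center C))
      (by rw [QuotientGroup.ker_mk']) ⟨a, ha⟩ ⟨b, hb⟩
    exact congrArg Subtype.val this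
  have := (center C).card_mul_index
  rw [index_eq_card, hk] at this
  rw [← this, mul_comm]
  exact Nat.mul_le_mul_left _ (Nat.pow_le_pow_right hp.pos hk2)

omit h in
theorem sum_inv_sq_le (N : ℕ) (hN : 2 ≤ N) :
    ∑ n ∈ Finset.Icc 2 N, ((1 : ℚ) / (n : ℚ) ^ 2) ≤ (3 / 4 : ℚ) - 1 / (N : ℚ) := by
  induction N, hN using Nat.le_induction with
  | base => norm_num
  | succ n hn ih =>
    rw [Finset.sum_Icc_succ_top (by omega)]
    have hn0 : (0 : ℚ) < n := by exact_mod_cast (by omega : 0 < n)
    have h1 : 1 / ((n + 1 : ℕ) : ℚ) ^ 2 ≤ 1 / n - 1 / ((n + 1 : ℕ) : ℚ) := by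
      push_cast
      rw [div_sub_div _ _ hn0.ne' (by positivity), div_le_div_iff₀ (by positivity) (by positivity)]
      nlinarith
    linarith

theorem exists_comm [Finite G] (hnn : ∀ g : G, g ∉ center G → ¬ (cz g).Normal)
    (hna : center G ≠ ⊤) : ∃ g : G, g ∉ center G ∧ ∀ a ∈ cz g, ∀ b ∈ cz g, a * b = b * a := by
  classical
  by_contra hcon
  have hall : ∀ g : G, g ∉ center G → ¬ ∀ a ∈ cz g, ∀ b ∈ cz g, a * b = b * a := fun g hg hc =>
    hcon ⟨g, hg, hc⟩
  haveI := Fintype.ofFinite G
  haveI := Fintype.ofFinite (Subgroup G)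
  set A : Subgroup G → Finset G := fun C => (((center C).map C.subtype : Subgroup G) : Set G).toFinset
  have hA : ∀ C : Subgroup G, (A C).card = Nat.card (center C) := by
    intro C
    simp only [A, Set.toFinset_card, ← Nat.card_eq_fintype_card]
    exact card_map_of_injective C.subtype_injective
  set F : ℕ → Finset (Subgroup G) := fun p => Finset.univ.filter fun C =>
    p.Prime ∧ ∃ P : Sylow p G, C = normalizer ((P : Subgroup G) : Set G) ∧
      p ^ 2 * Nat.card (center C) ≤ Nat.card C
  set I := Finset.Icc 2 (Nat.card G)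
  have hcover : (Finset.univ.filter fun g : G => g ∉ center G) ⊆
      I.biUnion fun p => (F p).biUnion A := by
    intro g hg
    have hg' : g ∉ center G := (Finset.mem_filter.1 hg).2
    obtain ⟨p, hp, P, hP, hle⟩ := exists_sylow_of_noncomm h hnn hg' (hall g hg')
    simp only [Finset.mem_biUnion]
    refine ⟨p, ?_, cz g, ?_, ?_⟩
    · refine Finset.mem_Icc.2 ⟨hp.two_le, ?_⟩
      have h1 : 0 < Nat.card (center (cz g)) := Nat.card_pos
      calc p ≤ p ^ 2 := Nat.le_self_pow (by norm_num) p
        _ ≤ p ^ 2 * Nat.card (center (cz g)) := Nat.le_mul_of_pos_right _ h1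
        _ ≤ Nat.card (cz g) := hle
        _ ≤ Nat.card G := card_le_card_group _
    · simp only [F, Finset.mem_filter, Finset.mem_univ, true_and]
      exact ⟨hp, P, hP, hle⟩
    · simp only [A, Set.mem_toFinset, SetLike.mem_coe, mem_map]
      refine ⟨⟨g, mem_cz.2 rfl⟩, Subgroup.mem_center_iff.2 fun y => Subtype.ext ?_, rfl⟩
      exact (mem_cz.1 y.2).symm
  have hbound : ∀ p ∈ I, (((F p).biUnion A).card : ℚ) ≤ Nat.card G * (1 / (p : ℚ) ^ 2) := by
    intro p hpI
    by_cases hp : p.Prime
    · haveI := Fact.mk hp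
      set n := Nat.card (Sylow p G)
      have hsub : F p ⊆ (Finset.univ : Finset (Sylow p G)).image
          (fun P : Sylow p G => normalizer ((P : Subgroup G) : Set G)) := by
        intro C hC
        simp only [F, Finset.mem_filter, Finset.mem_univ, true_and] at hC
        obtain ⟨-, P, rfl, -⟩ := hC
        exact Finset.mem_image_of_mem _ (Finset.mem_univ P)
      have hterm : ∀ C ∈ F p, n * ((A C).card * p ^ 2) ≤ Nat.card G := by
        intro C hC
        simp only [F, Finset.mem_filter, Finset.mem_univ, true_and] at hC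
        obtain ⟨-, P, rfl, hle⟩ := hC
        rw [hA, mul_comm _ (p ^ 2)]
        refine (Nat.mul_le_mul_left n hle).trans (le_of_eq ?_)
        have := Subgroup.index_mul_card (normalizer ((P : Subgroup G) : Set G))
        rw [← this]
        congr 1
        exact P.card_eq_index_normalizer
      have hn : 0 < n := Nat.card_pos
      have h1 : n * (((F p).biUnion A).card * p ^ 2) ≤ n * Nat.card G := by
        calc n * (((F p).biUnion A).card * p ^ 2)
            ≤ n * ((∑ C ∈ F p, (A C).card) * p ^ 2) :=
              Nat.mul_le_mul_left _ (Nat.mul_le_mul_right _ Finset.card_biUnion_le)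
          _ = ∑ C ∈ F p, n * ((A C).card * p ^ 2) := by rw [Finset.sum_mul, Finset.mul_sum]
          _ ≤ (F p).card • Nat.card G := Finset.sum_le_card_nsmul _ _ _ hterm
          _ ≤ n * Nat.card G := by
            rw [smul_eq_mul]
            refine Nat.mul_le_mul_right _ ((Finset.card_le_card hsub).trans (Finset.card_image_le.trans ?_))
            rw [Finset.card_univ, ← Nat.card_eq_fintype_card]
      have h2 := Nat.le_of_mul_le_mul_left h1 hn
      have hp0 : (0 : ℚ) < (p : ℚ) ^ 2 := by have := hp.pos; positivity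
      rw [mul_one_div, le_div_iff₀ hp0]
      exact_mod_cast h2
    · have : F p = ∅ := by simp [F, hp]
      rw [this, Finset.biUnion_empty, Finset.card_empty, Nat.cast_zero]; positivity
  have hidx : 4 ≤ (center G).index := by
    by_contra hlt
    apply hna
    haveI : IsCyclic (G ⧸ center G) := by
      have h0 : (center G).index ≠ 0 := FiniteIndex.index_ne_zero
      rcases (show (center G).index = 1 ∨ (center G).index = 2 ∨ (center G).index = 3 by omega) with e | e | e <;>
        rw [index_eq_card] at e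
      · haveI : Subsingleton (G ⧸ center G) := (Nat.card_eq_one_iff_unique.1 e).1
        infer_instance
      · haveI := Fact.mk Nat.prime_two; exact isCyclic_of_prime_card e
      · haveI := Fact.mk Nat.prime_three; exact isCyclic_of_prime_card e
    rw [eq_top_iff]
    exact fun x _ => Subgroup.mem_center_iff.2 fun y =>
      commutative_of_cyclic_center_quotient (QuotientGroup.mk' (center G)) (by rw [QuotientGroup.ker_mk']) y x
  have hcount : (Finset.univ.filter fun g : G => g ∉ center G).card + Nat.card (center G) = Nat.card G := by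
    have h1 := Finset.card_filter_add_card_filter_not (s := (Finset.univ : Finset G)) (fun g => g ∉ center G)
    rw [Finset.card_univ, ← Nat.card_eq_fintype_card] at h1
    rw [← h1]
    congr 1
    rw [Nat.card_eq_fintype_card, Fintype.card_subtype]
    congr 1
    ext; simp
  have hg4 : 4 * Nat.card (center G) ≤ Nat.card G := by
    rw [← (center G).card_mul_index, mul_comm 4]; exact Nat.mul_le_mul_left _ hidx
  have h2N : 2 ≤ Nat.card G := by
    have : 0 < Nat.card (center G) := Nat.card_pos
    omega
  have hmain : (((Finset.univ.filter fun g : G => g ∉ center G).card : ℕ) : ℚ) ≤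
      Nat.card G * (3 / 4 - 1 / (Nat.card G : ℚ)) := by
    refine le_trans ?_ (mul_le_mul_of_nonneg_left (sum_inv_sq_le _ h2N) (by positivity))
    rw [Finset.mul_sum]
    refine le_trans ?_ (Finset.sum_le_sum hbound)
    exact_mod_cast (Finset.card_le_card hcover).trans Finset.card_biUnion_le
  have h3 : (Nat.card G : ℚ) * (1 / (Nat.card G : ℚ)) = 1 := by
    rw [mul_one_div, div_self]; exact_mod_cast (by omega : Nat.card G ≠ 0)
  have hc' : (((Finset.univ.filter fun g : G => g ∉ center G).card : ℕ) : ℚ) + Nat.card (center G) = Nat.card G := by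
    exact_mod_cast hcount
  have hg4' : 4 * (Nat.card (center G) : ℚ) ≤ Nat.card G := by exact_mod_cast hg4
  nlinarith

theorem isSolvable_of_comm [Finite G] (hnn : ∀ g : G, g ∉ center G → ¬ (cz g).Normal)
    {a : G} (ha : a ∉ center G) (hc : ∀ x ∈ cz a, ∀ y ∈ cz a, x * y = y * x) :
    Group.IsSolvable G := by
  set C := cz a with hCdef
  have hcz : ∀ x ∈ C, x ∉ center G → cz x = C := fun x hx hxZ =>
    (cz_eq_of_le h ha hxZ (fun y hy => mem_cz.2 (hc x hx y hy))).symm
  -- Sylow subgroups attached to the non-central primes of `C`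
  have hsyl : ∀ q : ℕ, ∀ hq : q.Prime, ∀ x ∈ C, x ∉ center G → (∃ k, orderOf x = q ^ k) →
      ∃ Q : Sylow q G, (Q : Subgroup G) ≤ C ∧ normalizer ((Q : Subgroup G) : Set G) = C ∧
        ¬ q ∣ Nat.card (commutator G) := by
    intro q hq x hx hxZ ⟨k, hk⟩
    haveI := Fact.mk hq
    have hpg : IsPGroup q (zpowers (⟨x, hx⟩ : C)) := by
      refine IsPGroup.of_card (n := k) ?_
      rw [Nat.card_zpowers, ← orderOf_injective C.subtype C.subtype_injective]
      exact hk
    obtain ⟨Q0, hQ0⟩ := hpg.exists_le_sylow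
    have hQn : (Q0 : Subgroup C).Normal :=
      ⟨fun n hn g => by
        have : g * n * g⁻¹ = n := Subtype.ext (by
          simp only [Subgroup.coe_mul, Subgroup.coe_inv]
          rw [hc g g.2 n n.2, mul_inv_cancel_right])
        rw [this]; exact hn⟩
    set Q' := (Q0 : Subgroup C).map C.subtype
    have hxQ : x ∈ Q' := ⟨⟨x, hx⟩, hQ0 (mem_zpowers _), rfl⟩
    have hcQ : centralizer (Q' : Set G) = C := by
      refine le_antisymm (fun y hy => ?_) fun y hy w hw => hc w (map_subtype_le _ hw) y hy
      rw [← hcz x hx hxZ]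
      exact mem_cz.2 (hy x hxQ)
    have hN : normalizer (Q' : Set G) = C := by
      refine ((h a ha).le_iff.1 (le_of_eq_of_le hcQ.symm (centralizer_le_normalizer _))).resolve_left fun htop => ?_
      haveI : Q'.Normal := normalizer_eq_top_iff.1 htop
      exact hnn a ha (by rw [← hCdef, ← hcQ]; infer_instance)
    obtain ⟨Q, hQ⟩ := exists_sylow_eq Q0 hN hQn
    have hNQ : normalizer ((Q : Subgroup G) : Set G) = C := by rw [hQ, hN]
    refine ⟨Q, by rw [hQ]; exact map_subtype_le _, hNQ, fun hd => ?_⟩
    have hP : normalizer ((Q : Subgroup G) : Set G) ≤ centralizer ((Q : Subgroup G) : Set G) := by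
      rw [hNQ, hQ, hcQ]
    refine MonoidHom.not_dvd_card_ker_transferSylow Q hP (hd.trans (card_dvd_of_le ?_))
    rw [commutator_eq_closure, closure_le]
    rintro _ ⟨u, v, rfl⟩
    rw [SetLike.mem_coe, MonoidHom.mem_ker, map_commutatorElement, commutatorElement_eq_one_iff_mul_comm]
    have hQC : ∀ w : (Q : Subgroup G), (w : G) ∈ C := fun w => by
      have := w.2; rw [← hNQ]; exact le_normalizer this
    exact Subtype.ext (hc _ (hQC _) _ (hQC _))
  set K := commutator G
  have hKC : ∀ x ∈ K, x ∈ C → x ∈ center G := by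
    intro x hxK hxC
    refine mem_of_primary_parts x fun q hq => ?_
    by_contra hnZ
    obtain ⟨j, -, hj⟩ := (Nat.dvd_prime_pow hq).1 (orderOf_primary_part_dvd x q)
    obtain ⟨Q, -, -, hnd⟩ := hsyl q hq _ (pow_mem hxC _) hnZ ⟨j, hj⟩
    apply hnd
    have h1 : orderOf (x ^ (ordCompl[q] (orderOf x))) ∣ Nat.card K :=
      Subgroup.orderOf_dvd_natCard K (pow_mem hxK _)
    rw [hj] at h1
    refine dvd_trans ?_ h1
    refine dvd_pow_self q fun hj0 => hnZ ?_
    rw [hj0, pow_zero, orderOf_eq_one_iff] at hj
    rw [hj]; exact one_mem _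
  obtain ⟨q, hq, haq⟩ := exists_noncentral_part ha
  obtain ⟨j, -, hj⟩ := (Nat.dvd_prime_pow hq).1 (orderOf_primary_part_dvd a q)
  obtain ⟨Q, hQC, hNQ, hqK⟩ := hsyl q hq _ (pow_mem (mem_cz.2 rfl) _) haq ⟨j, hj⟩
  haveI := Fact.mk hq
  have hnK : Group.IsNilpotent K := by
    refine isNilpotent_iff_forall_exists_normal_sylow.2 fun p hp P => ?_
    set P' := (P : Subgroup K).map K.subtype with hP'
    -- the normalizer of `P'` covers a Sylow `q`-subgroup
    set N := normalizer (P' : Set G)
    have hNK : N ⊔ K = ⊤ := Sylow.normalizer_sup_eq_top P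
    have hqN : ¬ q ∣ N.index := by
      intro hd
      apply hqK
      refine hd.trans ?_
      rw [← relIndex_top_right, ← hNK]
      show N.relIndex (N ⊔ K) ∣ Nat.card K
      exact by
            have e1 := Subgroup.card_mul_index (N.subgroupOf (N ⊔ K))
            have e2 := Subgroup.card_mul_index (K.subgroupOf (N ⊔ K))
            rw [Nat.card_congr (subgroupOfEquivOfLe (le_sup_left : N ≤ N ⊔ K)).toEquiv] at e1
            rw [Nat.card_congr (subgroupOfEquivOfLe (le_sup_right : K ≤ N ⊔ K)).toEquiv] at e2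
            change _ * N.relIndex (N ⊔ K) = _ at e1
            change _ * K.relIndex (N ⊔ K) = _ at e2
            rw [relIndex_sup_right] at e2
            have e3 := Subgroup.card_mul_index (K.subgroupOf N)
            change _ * K.relIndex N = _ at e3
            refine ⟨Nat.card (K.subgroupOf N), Nat.eq_of_mul_eq_mul_right
              (Nat.pos_of_ne_zero (FiniteIndex.index_ne_zero : (K.subgroupOf N).index ≠ 0)) ?_⟩
            change Nat.card K * K.relIndex N = N.relIndex (N ⊔ K) * Nat.card (K.subgroupOf N) * K.relIndex N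
            rw [mul_assoc, e3, e2, ← e1, mul_comm]
    obtain ⟨S⟩ : Nonempty (Sylow q N) := inferInstance
    have hcard : Nat.card ((S : Subgroup N).map N.subtype) = q ^ (Nat.card G).factorization q := by
      rw [card_map_of_injective N.subtype_injective, S.card_eq_multiplicity, ← N.card_mul_index,
        Nat.factorization_mul Nat.card_pos.ne' FiniteIndex.index_ne_zero]
      simp [Nat.factorization_eq_zero_of_not_dvd hqN]
    obtain ⟨g, hg⟩ := MulAction.exists_smul_eq G Q (Sylow.ofCard _ hcard)
    have hgQ : ∀ y ∈ (Q : Subgroup G), g * y * g⁻¹ ∈ N := by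
      intro y hy
      have : g * y * g⁻¹ ∈ ((g • Q : Sylow q G) : Subgroup G) := by
        rw [Sylow.coe_subgroup_smul]; exact ⟨y, hy, rfl⟩
      rw [hg] at this
      exact map_subtype_le (S : Subgroup N) this
    -- `P₁` is normalised by `Q`
    set P₁ : Sylow p K := P.mapSurjective (f := (MulAut.conjNormal g⁻¹ : K ≃* K).toMonoidHom) (MulEquiv.surjective _)
    set R := (P₁ : Subgroup K).map K.subtype with hRdef
    have hR : R = MulAut.conj g⁻¹ • P' := map_conjNormal (P : Subgroup K) g⁻¹
    have hQR : (Q : Subgroup G) ≤ normalizer (R : Set G) := by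
      intro y hy
      have hyN := mem_normalizer_iff_conj_smul.1 (hgQ y hy)
      rw [mem_normalizer_iff_conj_smul, hR, smul_smul, ← map_mul]
      conv_rhs => rw [← hyN, smul_smul, ← map_mul]
      congr 2
      group
    have hCR : C ≤ normalizer (R : Set G) := by
      intro c hcC
      rw [mem_normalizer_iff_conj_smul]
      obtain ⟨k, hk⟩ := MulAction.exists_smul_eq K P₁
        (P₁.mapSurjective (f := (MulAut.conjNormal c : K ≃* K).toMonoidHom) (MulEquiv.surjective _))
      have hkc : MulAut.conj (k : G) • R = MulAut.conj c • R := by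
        have hk' := congrArg (fun T : Sylow p K => (T : Subgroup K).map K.subtype) hk
        change ((k • P₁ : Sylow p K) : Subgroup K).map K.subtype =
          ((P₁ : Subgroup K).map (MulAut.conjNormal c : K ≃* K).toMonoidHom).map K.subtype at hk'
        rw [Sylow.coe_subgroup_smul, map_conj_subtype, map_conjNormal] at hk'
        exact hk'
      set M := K ⊔ (Q : Subgroup G)
      haveI hMn : M.Normal := ⟨fun x hx u => by
        rw [show u * x * u⁻¹ = ⁅u, x⁆ * x by simp [commutatorElement_def]]
        exact mul_mem (mem_sup_left (commutator_mem_commutator (mem_top u) (mem_top x))) hx⟩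
      set T := normalizer (R : Set G) ⊓ M
      have hQT : (Q : Subgroup G) ≤ T := le_inf hQR le_sup_right
      have hconjQ : ∀ y ∈ (Q : Subgroup G), (k : G)⁻¹ * y * k ∈ T := by
        intro y hy
        refine mem_inf.2 ⟨mem_normalizer_iff_conj_smul.2 ?_, ?_⟩
        · rw [map_mul, map_mul, ← smul_smul, ← smul_smul, hkc, smul_smul (MulAut.conj y), ← map_mul,
            ← hc c hcC y (hQC hy), map_mul, ← smul_smul, mem_normalizer_iff_conj_smul.1 (hQR hy), ← hkc,
            smul_smul, ← map_mul, inv_mul_cancel, map_one, one_smul]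
        · have := Normal.conj_mem hMn y (mem_sup_right hy) (k : G)⁻¹
          simpa using this
      let Q₁ : Sylow q T := Q.subtype hQT
      let Q₂ : Sylow q T := ((k : G)⁻¹ • Q).subtype (by
        rintro z hz
        rw [Sylow.coe_subgroup_smul] at hz
        obtain ⟨y, hy, rfl⟩ := hz
        simpa using hconjQ y hy)
      obtain ⟨n, hn⟩ := MulAction.exists_smul_eq T Q₁ Q₂
      rw [Sylow.smul_subtype] at hn
      have hn' := Sylow.subtype_injective hn
      have hkn : (k : G) * n ∈ normalizer ((Q : Subgroup G) : Set G) := by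
        apply Sylow.smul_eq_iff_mem_normalizer.1
        rw [mul_smul, show ((n : G) • Q) = (k : G)⁻¹ • Q from hn', smul_inv_smul]
      rw [hNQ] at hkn
      have hM : (k : G) * n ∈ M := mul_mem (mem_sup_left k.2) (mem_inf.1 n.2).2
      obtain ⟨u, hu, v, hv, huv⟩ := Subgroup.mem_sup_of_normal_left.1 hM
      have huZ : u ∈ center G := hKC u hu (by
        rw [eq_mul_inv_of_mul_eq huv]
        exact mul_mem hkn (inv_mem (hQC hv)))
      have hkR : (k : G) * n ∈ normalizer (R : Set G) := by
        rw [← huv]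
        exact mul_mem (centralizer_le_normalizer _ (center_le_centralizer _ huZ)) (hQR hv)
      rw [← hkc]
      exact mem_normalizer_iff_conj_smul.1 ((mul_mem_cancel_right (mem_inf.1 n.2).1).1 hkR)
    have htop : normalizer (R : Set G) = ⊤ := by
      rcases (h a ha).le_iff.1 hCR with e | e
      · exact e
      · rw [eq_top_iff]
        intro w _
        refine centralizer_le_normalizer _ fun z hz => ?_
        have : z ∈ center G := hKC z (map_subtype_le (P₁ : Subgroup K) hz) (e.le (le_normalizer hz))
        exact (Subgroup.mem_center_iff.1 this w).symm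
    haveI hRn : R.Normal := normalizer_eq_top_iff.1 htop
    have hP'R : P' = R := by
      have h1 : MulAut.conj g • R = P' := by
        rw [hR, smul_smul, ← map_mul, mul_inv_cancel, map_one, one_smul]
      rw [← h1]; exact mem_normalizer_iff_conj_smul.1 (htop.ge (mem_top g))
    haveI : P'.Normal := hP'R ▸ hRn
    have : (P : Subgroup K) = P'.subgroupOf K := (comap_map_eq_self_of_injective K.subtype_injective _).symm
    rw [this]
    infer_instance
  haveI := hnK
  exact Group.isSolvable_of_ker_le_range K.subtype (Abelianization.of) (by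
    intro x hx
    rw [Abelianization.ker_of] at hx
    exact ⟨⟨x, hx⟩, rfl⟩)

theorem isSolvable [Finite G] : Group.IsSolvable G := by
  by_cases hna : center G = ⊤
  · exact Group.isSolvable_of_comm fun a b => (Subgroup.mem_center_iff.1 (show b ∈ center G by rw [hna]; exact mem_top b)) a
  by_cases hn : ∃ g, g ∉ center G ∧ (cz g).Normal
  · obtain ⟨g, hg, hgn⟩ := hn
    exact isSolvable_of_normal h hg hgn
  push Not at hn
  obtain ⟨a, ha, hc⟩ := exists_comm h hn hna
  exact isSolvable_of_comm h hn ha hc

end Cfsg.Agent.FGS.MaxCent
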