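import Mathlib.GroupTheory.Sylow
import Mathlib.GroupTheory.Solvable

/-! A maximal subgroup of a finite solvable group has prime power index. -/

namespace Cfsg.Agent.FGS

open Subgroup
open scoped Pointwise commutatorElement

variable {G : Type*} [Group G]

theorem exists_card_pow_of_sup_eq_top [Finite G] {M : Subgroup G} (hM : IsCoatom M) {K : Subgroup G}
    [K.Normal] (hK : ¬ K ≤ M) : M.index = M.relIndex K := by
  have htop : K ⊔ M = ⊤ := hM.2 _ (lt_of_le_of_ne le_sup_right (fun h => hK (h ▸ le_sup_left)))
  have e1 := Subgroup.card_mul_index M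
  have e2 := Subgroup.card_mul_index K
  have e3 := Subgroup.card_mul_index (M.subgroupOf K)
  have e4 := Subgroup.card_mul_index (K.subgroupOf M)
  have c1 : Nat.card (M.subgroupOf K) = Nat.card ↥(M ⊓ K) := by
    rw [← Subgroup.card_map_of_injective (Subgroup.subtype_injective K), Subgroup.subgroupOf_map_subtype]
  have c2 : Nat.card (K.subgroupOf M) = Nat.card ↥(M ⊓ K) := by
    rw [← Subgroup.card_map_of_injective (Subgroup.subtype_injective M), Subgroup.subgroupOf_map_subtype,
      inf_comm]
  rw [c1] at e3; rw [c2] at e4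
  change _ * M.relIndex K = _ at e3
  change _ * K.relIndex M = _ at e4
  have : K.index = K.relIndex M := by
    rw [← Subgroup.relIndex_sup_right (H := M) (K := K), sup_comm, htop, relIndex_top_right]
  rw [this] at e2
  refine Nat.eq_of_mul_eq_mul_left (Nat.card_pos (α := M)) ?_
  rw [e1, ← e2, ← e3, ← e4]; ring

theorem isCoatom_index_prime_pow [Finite G] (hG : Group.IsSolvable G) {M : Subgroup G}
    (hM : IsCoatom M) : ∃ p k : ℕ, p.Prime ∧ M.index = p ^ k := by
  classical
  obtain ⟨n, hn⟩ := hG.solvable
  have hex : ∃ k, derivedSeries G k ≤ M := ⟨n, by rw [hn]; exact bot_le⟩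
  set k := Nat.find hex with hk
  have hk0 : k ≠ 0 := by
    intro h
    have := Nat.find_spec hex
    rw [← hk, h, derivedSeries_zero] at this
    exact hM.1 (top_le_iff.1 this)
  obtain ⟨j, hj⟩ := Nat.exists_eq_succ_of_ne_zero hk0
  set K := derivedSeries G j with hKdef
  have hKM : ¬ K ≤ M := Nat.find_min hex (m := j) (by omega)
  haveI : K.Normal := derivedSeries_normal G j
  have hL : ⁅K, K⁆ ≤ M := by
    have := Nat.find_spec hex
    rw [← hk, hj, derivedSeries_succ] at this
    exact this
  by_contra hcon
  push Not at hcon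
  apply hKM
  -- every Sylow subgroup of K lies in M
  have hsyl : ∀ (p : ℕ) [Fact p.Prime] (P : Sylow p K), (P : Subgroup K).map K.subtype ≤ M := by
    intro p _ P
    by_contra hP
    set P' := (P : Subgroup K).map K.subtype
    set L : Subgroup G := ⁅K, K⁆
    have hPK : P' ≤ K := map_subtype_le _
    haveI hnorm : (P' ⊔ L).Normal := by
      refine ⟨fun x hx g => ?_⟩
      suffices h : (P' ⊔ L).map (MulAut.conj g).toMonoidHom ≤ P' ⊔ L from
        h ⟨x, hx, rfl⟩
      rw [Subgroup.map_sup]
      refine sup_le ?_ ?_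
      · rintro _ ⟨_, ⟨y, hy, rfl⟩, rfl⟩
        obtain ⟨c, hc⟩ := MulAction.exists_smul_eq K P (P.mapSurjective
          (f := (MulAut.conjNormal g : K ≃* K).toMonoidHom) (MulEquiv.surjective _))
        have hy' : MulAut.conjNormal g y ∈ (c • P : Sylow p K) := by
          rw [hc]; exact ⟨y, hy, rfl⟩
        change MulAut.conjNormal g y ∈ ((c • P : Sylow p K) : Subgroup K) at hy'
        rw [Sylow.coe_subgroup_smul] at hy'
        obtain ⟨z, hz, hzy⟩ := hy'
        have h1 : g * (y : G) * g⁻¹ = (c : G) * (z : G) * (c : G)⁻¹ := by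
          have := congrArg (Subtype.val : K → G) hzy
          simpa using this.symm
        change g * (y : G) * g⁻¹ ∈ P' ⊔ L
        rw [h1, show (c : G) * (z : G) * (c : G)⁻¹ = ⁅(c : G), (z : G)⁆ * z by
          simp [commutatorElement_def]]
        exact mul_mem (mem_sup_right (commutator_mem_commutator c.2 z.2))
          (mem_sup_left ⟨z, hz, rfl⟩)
      · rintro _ ⟨y, hy, rfl⟩
        exact mem_sup_right (Normal.conj_mem inferInstance y hy g)
    have hidx := exists_card_pow_of_sup_eq_top hM (K := P' ⊔ L)
      (fun h => hP (le_sup_left.trans h))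
    have hdvd : M.relIndex (P' ⊔ L) ∣ Nat.card P' := by
      refine (Subgroup.relIndex_dvd_of_le_left _ hL).trans ?_
      change L.relIndex (P' ⊔ L) ∣ _
      rw [Subgroup.relIndex_sup_right]
      exact L.relIndex_dvd_card P'
    rw [← hidx, card_map_of_injective (subtype_injective K), P.card_eq_multiplicity] at hdvd
    obtain ⟨i, -, hi⟩ := (Nat.dvd_prime_pow Fact.out).1 hdvd
    exact hcon p i Fact.out hi
  have htop : (⊤ : Subgroup K) ≤ M.subgroupOf K := by
    have hdvd : Nat.card K ∣ Nat.card (M.subgroupOf K) := by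
      rw [← Nat.factorization_le_iff_dvd Nat.card_pos.ne' Nat.card_pos.ne']
      intro q
      by_cases hq : q ∈ (Nat.card K).primeFactors
      · haveI := Fact.mk (Nat.prime_of_mem_primeFactors hq)
        obtain ⟨P⟩ : Nonempty (Sylow q K) := inferInstance
        have hle : (P : Subgroup K) ≤ M.subgroupOf K := fun y hy => hsyl q P (mem_map_of_mem _ hy)
        have := Subgroup.card_dvd_of_le hle
        rw [P.card_eq_multiplicity] at this
        exact (Nat.Prime.pow_dvd_iff_le_factorization Fact.out Nat.card_pos.ne').1 this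
      · rw [← Nat.support_factorization, Finsupp.notMem_support_iff] at hq
        simp [hq]
    rw [Subgroup.eq_top_of_card_eq _ (Nat.dvd_antisymm (Subgroup.card_subgroup_dvd_card _) hdvd)]
  intro x hx
  exact htop (mem_top (⟨x, hx⟩ : K))

end Cfsg.Agent.FGS
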