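import Cfsg.Agent.S0540

/-! A refinement of Wielandt's subnormality criterion. -/

set_option autoImplicit false

namespace Cfsg.Agent.FGS.Wielandt

open Subgroup
open scoped Pointwise

universe u

theorem conj_smul_eq_map {G : Type*} [Group G] (g : G) (B : Subgroup G) :
    MulAut.conj g • B = B.map (MulAut.conj g).toMonoidHom := rfl

theorem isSubnormal_of_forall (n : ℕ) : ∀ (G : Type u) [Group G] [Finite G], Nat.card G = n → ∀ A : Subgroup G,
    (∀ a ∈ A, ∀ g : G, (A.subgroupOf (A ⊔ MulAut.conj (g⁻¹ * a * g) • A)).IsSubnormal) → A.IsSubnormal := by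
  induction n using Nat.strong_induction_on with
  | _ n ih =>
    intro G _ _ hn A hA
    by_contra hAsn
    -- the hypothesis is invariant under conjugation
    have hconj : ∀ k : G, ∀ a ∈ (MulAut.conj k • A), ∀ g : G,
        ((MulAut.conj k • A).subgroupOf
          ((MulAut.conj k • A) ⊔ MulAut.conj (g⁻¹ * a * g) • (MulAut.conj k • A))).IsSubnormal := by
      rintro k _ ⟨a, ha, rfl⟩ g
      have h0 := hA a ha (k⁻¹ * g * k)
      set x := (k⁻¹ * g * k)⁻¹ * a * (k⁻¹ * g * k) with hx
      set J' := (MulAut.conj k • A) ⊔ MulAut.conj (g⁻¹ * (k * a * k⁻¹) * g) • (MulAut.conj k • A) with hJ'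
      have hJ : J' = MulAut.conj k • (A ⊔ MulAut.conj x • A) := by
        rw [hJ', Subgroup.smul_sup]
        congr 1
        rw [smul_smul, smul_smul, ← map_mul, ← map_mul]
        congr 2
        rw [hx]; group
      have hmem : ∀ y : J', k⁻¹ * (y : G) * k ∈ A ⊔ MulAut.conj x • A := by
        intro y
        obtain ⟨z, hz, hzy⟩ := hJ.le y.2
        rw [← hzy]
        simpa [mul_assoc] using hz
      let φ : J' →* (A ⊔ MulAut.conj x • A : Subgroup G) :=
        MonoidHom.mk' (fun y => ⟨k⁻¹ * (y : G) * k, hmem y⟩) fun y z => Subtype.ext (by simp [mul_assoc])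
      have e : (MulAut.conj k • A).subgroupOf J' = (A.subgroupOf (A ⊔ MulAut.conj x • A)).comap φ := by
        ext y
        simp only [mem_subgroupOf, mem_comap]
        change (y : G) ∈ MulAut.conj k • A ↔ k⁻¹ * (y : G) * k ∈ A
        rw [mem_pointwise_smul_iff_inv_smul_mem, ← map_inv, MulAut.smul_def, MulAut.conj_apply, inv_inv]
      change ((MulAut.conj k • A).subgroupOf J').IsSubnormal
      rw [e]
      exact h0.comap φ
    -- every proper overgroup of a conjugate contains it subnormally
    have hsub : ∀ k : G, ∀ V : Subgroup G, V ≠ ⊤ → MulAut.conj k • A ≤ V →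
        ((MulAut.conj k • A).subgroupOf V).IsSubnormal := by
      intro k V hV hle
      have hlt : Nat.card V < n := by
        rw [← hn]
        refine lt_of_le_of_ne (card_le_card_group V) fun e => hV ((Subgroup.card_eq_iff_eq_top V).1 e)
      refine ih _ hlt V rfl _ fun a ha g => ?_
      set B := MulAut.conj k • A
      have h0 := hconj k a ha g
      set J := B.subgroupOf V ⊔ MulAut.conj (g⁻¹ * a * g) • B.subgroupOf V with hJdef
      have hmap : J.map V.subtype = B ⊔ MulAut.conj ((g⁻¹ * a * g : V) : G) • B := by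
        rw [hJdef, Subgroup.map_sup, map_subgroupOf_eq_of_le hle]
        congr 1
        rw [Coprime.map_subtype_conj_smul, map_subgroupOf_eq_of_le hle]
      have hmem : ∀ y : J, ((y : V) : G) ∈ B ⊔ MulAut.conj ((g⁻¹ * a * g : V) : G) • B := fun y => by
        rw [← hmap]; exact mem_map_of_mem _ y.2
      let φ : J →* (B ⊔ MulAut.conj ((g⁻¹ * a * g : V) : G) • B : Subgroup G) :=
        MonoidHom.mk' (fun y => ⟨((y : V) : G), hmem y⟩) fun y z => rfl
      exact h0.comap φ
    -- zipper lemma
    have hAtop : A ≠ ⊤ := fun h => hAsn (h ▸ (inferInstance : (⊤ : Subgroup G).Normal).isSubnormal)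
    set U : Set (Subgroup G) := {V | V ≠ ⊤ ∧ A ≤ V}
    set S : Subgroup G → Set (Subgroup G) := fun V =>
      {B | (∃ g : G, B = MulAut.conj g • A) ∧ B ≤ V ∧ (B.subgroupOf V).IsSubnormal}
    have hA1 : A = MulAut.conj (1 : G) • A := by rw [map_one, one_smul]
    have hAS : ∀ V ∈ U, A ∈ S V := fun V hV => by
      refine ⟨⟨1, hA1⟩, hV.2, ?_⟩
      have := hsub 1 V hV.1 (by rw [← hA1]; exact hV.2)
      rwa [← hA1] at this
    obtain ⟨M, ⟨hM, hAM⟩, hMmax⟩ := Cfsg.Agent.S0540.result A U ⟨A, hAtop, le_rfl⟩ S (fun V B => Iff.rfl) hAS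
      (fun V hV W _ B hB hBV => by
        obtain ⟨k, rfl⟩ := hB.1
        exact ⟨⟨k, rfl⟩, hBV, hsub k V hV.1 hBV⟩)
      (fun V hV W hW => by
        set J : Subgroup G := sSup (S V ∩ S W)
        have hAJ : A ≤ J := le_sSup ⟨hAS V hV, hAS W hW⟩
        refine ⟨normalizer (J : Set G), ⟨fun htop => hAsn ?_, hAJ.trans le_normalizer⟩, le_rfl⟩
        haveI : J.Normal := normalizer_eq_top_iff.1 htop
        have hJV : J ≤ V := sSup_le fun B hB => hB.1.2.1
        have hJtop : J ≠ ⊤ := fun h => hV.1 (top_le_iff.1 (h ▸ hJV))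
        exact IsSubnormal.trans hAJ ((hAS J ⟨hJtop, hAJ⟩).2.2) (Normal.isSubnormal inferInstance))
    have hMA := hAS M ⟨hM, hAM⟩
    have hNM : normalizer (M : Set G) ≤ M := by
      refine hMmax _ ⟨fun htop => hAsn ?_, hAM.trans le_normalizer⟩
      exact IsSubnormal.trans hAM hMA.2.2 (Normal.isSubnormal (normalizer_eq_top_iff.1 htop))
    have hall : ∀ a ∈ A, ∀ g : G, g⁻¹ * a * g ∈ M := by
      intro a ha g
      set x := g⁻¹ * a * g
      set J := A ⊔ MulAut.conj x • A
      have hJ : J ≠ ⊤ := by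
        intro h
        apply hAsn
        have h0 : (A.subgroupOf J).IsSubnormal := hA a ha g
        have hJs : J.IsSubnormal := by rw [h]; exact Normal.isSubnormal inferInstance
        exact IsSubnormal.trans le_sup_left h0 hJs
      have hxM : MulAut.conj x • A ≤ M := le_sup_right.trans (hMmax J ⟨hJ, le_sup_left⟩)
      have h2 : MulAut.conj x⁻¹ • M ≤ M := by
        refine hMmax _ ⟨fun h => hM ?_, ?_⟩
        · have h2 : MulAut.conj x • (MulAut.conj x⁻¹ • M) = M := by
            rw [smul_smul, ← map_mul, mul_inv_cancel, map_one, one_smul]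
          rw [← h2, h]
          exact eq_top_iff.2 fun y _ => ⟨x⁻¹ * y * x, mem_top _, by simp [mul_assoc]⟩
        · intro y hy
          rw [mem_pointwise_smul_iff_inv_smul_mem, ← map_inv, inv_inv, MulAut.smul_def, MulAut.conj_apply]
          exact hxM ⟨y, hy, rfl⟩
      refine hNM ?_
      have h3 : x⁻¹ ∈ normalizer (M : Set G) :=
        Coprime.conj_smul_eq_self_iff.1 (Subgroup.eq_of_le_of_card_ge h2
          (le_of_eq (card_map_of_injective (MulAut.conj x⁻¹).injective).symm))
      simpa using inv_mem h3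
    set N := normalClosure (A : Set G)
    have hNM' : N ≤ M := by
      refine (closure_le (K := M)).2 ?_
      intro y hy
      obtain ⟨a, ha, hc⟩ := Group.mem_conjugatesOfSet_iff.1 hy
      obtain ⟨c, rfl⟩ := isConj_iff.1 hc
      simpa using hall a ha c⁻¹
    have hN : N ≠ ⊤ := fun h => hM (top_le_iff.1 (h ▸ hNM'))
    exact hAsn (IsSubnormal.trans (le_normalClosure) (hAS N ⟨hN, le_normalClosure⟩).2.2
      (Normal.isSubnormal normalClosure_normal))

end Cfsg.Agent.FGS.Wielandt
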